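import Cfsg.Agent.FT.BG10.HallFusionSolv
import Cfsg.Agent.FT.BG10.SylowFusion

/-!
The normalizer of a nilpotent Hall subgroup controls its fusion (minimal simple group of odd
order).
-/

set_option autoImplicit false
set_option linter.style.haveILetI false

namespace Cfsg.Agent.FT.BG10

open Subgroup Cfsg.Agent.OddLocal

variable {G : Type*} [Group G] [Finite G] (hG : Cfsg.IsMinSimpleOddOrder G)
include hG

/-- `nilpotent_hall_fusion` inside a proper subgroup `L`. -/
theorem hall_fusion_in {L K : Subgroup G} (hL : L ≠ ⊤) (hKL : K ≤ L) (hKn : Group.IsNilpotent K)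
    (hK : (Nat.card K).Coprime K.index) {x g : G} (hx : x ∈ K) (hg : g ∈ L)
    (hgx : g * x * g⁻¹ ∈ K) :
    ∃ n ∈ L, n ∈ normalizer (K : Set G) ∧ n * x * n⁻¹ = g * x * g⁻¹ := by
  haveI := ms_solvable hG hL
  haveI := hKn
  obtain ⟨n, hn, hne⟩ := nilpotent_hall_fusion (L := L) (K := K.subgroupOf L)
    (Group.nilpotent_of_surjective (Subgroup.subgroupOfEquivOfLe hKL).symm.toMonoidHom
      (Subgroup.subgroupOfEquivOfLe hKL).symm.surjective)
    (by
      rw [Nat.card_congr (Subgroup.subgroupOfEquivOfLe hKL).toEquiv]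
      exact hK.coprime_dvd_right (Subgroup.relIndex_dvd_index_of_le hKL))
    (fun q hq => by haveI : Fact q.Prime := ⟨hq⟩; exact pLengthLE_one hG q hL)
    (x := ⟨x, hKL hx⟩) (g := ⟨g, hg⟩) hx hgx
  rw [← Subgroup.subgroupOf_normalizer_eq hKL] at hn
  exact ⟨n, n.2, hn, congrArg Subtype.val hne⟩

/-- The normalizer of a nilpotent Hall subgroup controls its fusion. -/
theorem nilpotent_hall_fusion_ms (H : Subgroup G) (hHn : Group.IsNilpotent H)
    (hHall : (Nat.card H).Coprime H.index) {x g : G} (hx : x ∈ H) (hgx : g * x * g⁻¹ ∈ H) :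
    ∃ n ∈ normalizer (H : Set G), n * x * n⁻¹ = g * x * g⁻¹ := by
  rcases eq_or_ne x 1 with rfl | hx1
  · exact ⟨1, one_mem _, by simp⟩
  have ho : orderOf x ≠ 1 := fun h => hx1 (orderOf_eq_one_iff.1 h)
  set p := (orderOf x).minFac with hp
  haveI hpf : Fact p.Prime := ⟨Nat.minFac_prime ho⟩
  obtain ⟨P, hPH⟩ := SolvStruct.hall_exists_sylow_le hHall (p := p)
    ((Nat.minFac_dvd _).trans (Subgroup.orderOf_dvd_natCard H hx))
  haveI := hHn
  obtain ⟨K₀, hK₀c, hK₀s, hK₀h, hK₀o⟩ := Transfer.exists_nilpotent_decomposition hHn (P.subtype hPH)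
  have hPm : ((P.subtype hPH : Sylow p H) : Subgroup H).map H.subtype = (P : Subgroup G) :=
    Subgroup.map_subgroupOf_eq_of_le hPH
  set K := K₀.map H.subtype with hK
  have hKH : K ≤ H := Subgroup.map_subtype_le _
  have hKc : K ≤ centralizer ((P : Subgroup G) : Set G) := by
    rintro _ ⟨k, hk, rfl⟩
    rw [Subgroup.mem_centralizer_iff]
    intro r hr
    exact congrArg Subtype.val (Subgroup.mem_centralizer_iff.1 (hK₀c hk) ⟨r, hPH hr⟩ hr)
  have hKP : K ⊔ (P : Subgroup G) = H := by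
    rw [hK, ← hPm, ← Subgroup.map_sup, hK₀s, ← MonoidHom.range_eq_map, Subgroup.range_subtype]
  have hKcard : Nat.card K = Nat.card K₀ := Subgroup.card_map_of_injective H.subtype_injective
  have hKP' : K ≤ normalizer ((P : Subgroup G) : Set G) :=
    hKc.trans (centralizer_le_normalizer' _)
  have hcop : (Nat.card K).Coprime (Nat.card (P : Subgroup G)) := by
    have h : K₀.index = Nat.card (P : Subgroup G) := by
      rw [← hPm, Subgroup.card_map_of_injective H.subtype_injective]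
      exact Nat.eq_of_mul_eq_mul_left Nat.card_pos ((Subgroup.card_mul_index K₀).trans hK₀o.symm)
    rwa [hKcard, ← h]
  have hKhall : (Nat.card K).Coprime K.index := by
    rw [hK, Subgroup.index_map_subtype, ← hK, hKcard]
    exact hK₀h.mul_right (hHall.coprime_dvd_left (Subgroup.card_subgroup_dvd_card K₀))
  have hKn : Group.IsNilpotent K :=
    Group.nilpotent_of_surjective (K₀.equivMapOfInjective H.subtype H.subtype_injective).toMonoidHom
      (K₀.equivMapOfInjective H.subtype H.subtype_injective).surjective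
  -- elements of `H` of order prime to `p` lie in `K`
  have hmem : ∀ z ∈ H, (orderOf z).Coprime p → z ∈ K := by
    intro z hz hzp
    have hz' : z ∈ ((K ⊔ (P : Subgroup G) : Subgroup G) : Set G) := by rw [hKP]; exact hz
    rw [Subgroup.coe_mul_of_left_le_normalizer_right _ _ hKP'] at hz'
    obtain ⟨k, hk, r, hr, rfl⟩ := hz'
    have hcomm : Commute k r := (Subgroup.mem_centralizer_iff.1 (hKc hk) r hr).symm
    have h1 : r ^ orderOf (k * r) = (k ^ orderOf (k * r))⁻¹ := by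
      rw [eq_inv_iff_mul_eq_one, (hcomm.symm.pow_pow _ _).eq, ← hcomm.mul_pow, pow_orderOf_eq_one]
    have h2 : r ^ orderOf (k * r) = 1 := by
      refine orderOf_eq_one_iff.1 (Nat.eq_one_of_dvd_coprimes hcop ?_
        (Subgroup.orderOf_dvd_natCard _ (pow_mem hr _)))
      rw [h1, orderOf_inv]
      exact Subgroup.orderOf_dvd_natCard _ (pow_mem hk _)
    obtain ⟨j, hj⟩ := P.isPGroup'.exists_card_eq
    have h3 : r = 1 := orderOf_eq_one_iff.1 (Nat.eq_one_of_dvd_coprimes
      ((hzp.symm.pow_left j)) (hj ▸ Subgroup.orderOf_dvd_natCard _ hr)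
      (orderOf_dvd_of_pow_eq_one h2))
    show k * r ∈ K
    rwa [h3, mul_one]
  -- the parts
  set x1 := Element.pPart p x with hx1d
  set x2 := Element.pComplPart p x with hx2d
  have hx12 : x1 * x2 = x := Element.pPart_mul_pComplPart p x
  have hx1o := Element.orderOf_pPart_eq_pow hpf.1 x
  have hx1H : x1 ∈ H := (Subgroup.zpowers_le.2 hx) (Element.pPart_mem_zpowers p x)
  have hx1P : x1 ∈ (P : Subgroup G) := SolvStruct.nil_mem_sylow hHn hPH hx1o hx1H
  have hx2K : x2 ∈ K := hmem _ ((Subgroup.zpowers_le.2 hx) (Element.pComplPart_mem_zpowers p x))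
    (Element.coprime_orderOf_pComplPart hpf.1 x)
  have hoc : ∀ a : G, orderOf (g * a * g⁻¹) = orderOf a := fun a =>
    orderOf_injective (MulAut.conj g).toMonoidHom (MulAut.conj g).injective a
  have hzc : ∀ a ∈ zpowers x, g * a * g⁻¹ ∈ H := by
    rintro _ ⟨i, rfl⟩
    show g * x ^ i * g⁻¹ ∈ H
    rw [← conj_zpow]
    exact zpow_mem hgx i
  have hy1P : g * x1 * g⁻¹ ∈ (P : Subgroup G) :=
    SolvStruct.nil_mem_sylow hHn hPH ((hoc x1).trans hx1o)
      (hzc _ (Element.pPart_mem_zpowers p x))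
  have hy2K : g * x2 * g⁻¹ ∈ K := hmem _ (hzc _ (Element.pComplPart_mem_zpowers p x))
    ((hoc x2).symm ▸ Element.coprime_orderOf_pComplPart hpf.1 x)
  have hy : g * x * g⁻¹ = (g * x1 * g⁻¹) * (g * x2 * g⁻¹) := by rw [← hx12]; group
  -- step 1
  obtain ⟨n₁, hn₁, c, hc, hnc⟩ := sylow_fusion hG P {x1} g
    (Set.singleton_subset_iff.2 hx1P) (by rw [Set.image_singleton]; exact Set.singleton_subset_iff.2 hy1P)
  have hcx : c * x1 * c⁻¹ = x1 := by
    rw [← Subgroup.mem_centralizer_iff.1 hc x1 rfl, mul_assoc, mul_inv_cancel, mul_one]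
  have hn₁x : n₁ * x1 * n₁⁻¹ = g * x1 * g⁻¹ := by
    rw [← hnc]
    conv_lhs => rw [← hcx]
    group
  have hKn1 : conjBy n₁ K ≤ centralizer ((P : Subgroup G) : Set G) := by
    refine (conjBy_mono hKc).trans (le_of_eq ?_)
    rw [conjBy_centralizer, conjBy_eq_iff_mem_normalizer.2 hn₁]
  obtain ⟨c₀, hc₀, hc₀K⟩ := Transfer.exists_conj_of_nilpotent_hall (Nat.card K) _ K (conjBy n₁ K)
    rfl (card_conjBy n₁ K) hKc hKn1 hKn
    (Group.nilpotent_of_surjective (K.equivMapOfInjective _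
      (MulAut.conj n₁).injective).toMonoidHom (K.equivMapOfInjective _
        (MulAut.conj n₁).injective).surjective) hKhall
  have hnK : conjBy (c₀⁻¹ * n₁) K = K := by
    rw [conjBy_mul, hc₀K]
    exact conjBy_inv_conjBy c₀ K
  have hc₀N : c₀⁻¹ ∈ normalizer ((P : Subgroup G) : Set G) :=
    inv_mem (centralizer_le_normalizer' _ hc₀)
  have hnP : conjBy (c₀⁻¹ * n₁) (P : Subgroup G) = P :=
    conjBy_eq_iff_mem_normalizer.2 (mul_mem hc₀N hn₁)
  have hnH : c₀⁻¹ * n₁ ∈ normalizer (H : Set G) := by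
    rw [← conjBy_eq_iff_mem_normalizer, ← hKP]
    exact (Subgroup.map_sup _ _ _).trans (congrArg₂ (· ⊔ ·) hnK hnP)
  set n := c₀⁻¹ * n₁ with hn
  have hnx1 : n * x1 * n⁻¹ = g * x1 * g⁻¹ := by
    rw [hn, show c₀⁻¹ * n₁ * x1 * (c₀⁻¹ * n₁)⁻¹ = c₀⁻¹ * (n₁ * x1 * n₁⁻¹) * c₀ by group, hn₁x,
      mul_assoc, Subgroup.mem_centralizer_iff.1 hc₀ _ hy1P, inv_mul_cancel_left]
  by_cases hKb : K = ⊥
  · refine ⟨n, hnH, ?_⟩
    rw [hKb, Subgroup.mem_bot] at hx2K
    rw [← hx12, hx2K, mul_one, hnx1]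
  -- step 2
  have hy11 : g * x1 * g⁻¹ ≠ 1 := by
    intro h
    have : x1 = 1 := by rw [← orderOf_eq_one_iff, ← hoc x1, h, orderOf_one]
    refine hpf.1.not_dvd_one ((Element.coprime_orderOf_pComplPart hpf.1 x).gcd_eq_one ▸
      Nat.dvd_gcd ?_ dvd_rfl)
    rw [← hx2d, ← one_mul x2, ← this, hx12]
    exact Nat.minFac_dvd _
  have hKy : K ≤ centralizer ({g * x1 * g⁻¹} : Set G) :=
    hKc.trans (Subgroup.centralizer_le (Set.singleton_subset_iff.2 hy1P))
  have huK : n * x2 * n⁻¹ ∈ K := by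
    rw [← hnK]
    exact conjBy_mem hx2K
  have hh : g * n⁻¹ ∈ centralizer ({g * x1 * g⁻¹} : Set G) := by
    rw [Subgroup.mem_centralizer_singleton_iff]
    conv_lhs => rw [← hnx1]
    group
  have hhu : g * n⁻¹ * (n * x2 * n⁻¹) * (g * n⁻¹)⁻¹ = g * x2 * g⁻¹ := by group
  obtain ⟨l, hlL, hlK, hle⟩ := hall_fusion_in hG (ms_centralizer_singleton_ne_top hG hy11) hKy hKn
    hKhall huK hh (by rw [hhu]; exact hy2K)
  rw [hhu] at hle
  have hm : l * n * x * (l * n)⁻¹ = g * x * g⁻¹ := by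
    rw [hy, ← hle, ← hx12]
    conv_rhs => rw [← hnx1]
    have hl1 : l * (n * x1 * n⁻¹) = (n * x1 * n⁻¹) * l := by
      rw [hnx1]; exact Subgroup.mem_centralizer_singleton_iff.1 hlL
    calc l * n * (x1 * x2) * (l * n)⁻¹ = l * (n * x1 * n⁻¹) * (n * x2 * n⁻¹) * l⁻¹ := by group
      _ = (n * x1 * n⁻¹) * l * (n * x2 * n⁻¹) * l⁻¹ := by rw [hl1]
      _ = _ := by group
  have hnKmem : n ∈ normalizer (K : Set G) := conjBy_eq_iff_mem_normalizer.1 hnK
  -- step 3
  have hPb : (P : Subgroup G) ≠ ⊥ := fun h => hy11 (by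
    have := hy1P
    rwa [h, Subgroup.mem_bot] at this)
  have hNK : normalizer (K : Set G) ≠ ⊤ := ms_normalizer_ne_top hG hKb fun h =>
    ms_centralizer_ne_top hG hPb (top_unique (h ▸ hKc))
  have hHN : H ≤ normalizer (K : Set G) := by
    rw [← hKP]
    refine sup_le Subgroup.le_normalizer fun r hr => ?_
    refine centralizer_le_normalizer' _ ?_
    rw [Subgroup.mem_centralizer_iff]
    exact fun k hk => (Subgroup.mem_centralizer_iff.1 (hKc hk) r hr).symm
  obtain ⟨n', -, hn', hne'⟩ := hall_fusion_in hG hNK hHN hHn hHall hx (mul_mem hlK hnKmem)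
    (by rw [hm]; exact hgx)
  exact ⟨n', hn', hne'.trans hm⟩

end Cfsg.Agent.FT.BG10
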